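import Cfsg.Agent.Lib.Frobenius.Examples
import Mathlib.Algebra.Algebra.Subalgebra.Lattice
import Mathlib.Algebra.Ring.GeomSum
import Mathlib.Algebra.Algebra.Rat
import Mathlib.GroupTheory.FiniteAbelian.Basic
import Mathlib.RingTheory.IntegralClosure.IntegrallyClosed
import Mathlib.RingTheory.LittleWedderburn
import Mathlib.RingTheory.IntegralDomain
import Mathlib.Algebra.Algebra.ZMod

/-!
# Finite subgroups of the multiplicative groups of division rings are Frobenius complements
-/

set_option autoImplicit false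
set_option linter.style.haveILetI false
set_option linter.unusedSectionVars false

namespace Cfsg.Agent.Lib.Frobenius.DivisionRing

open Cfsg Cfsg.Agent.Lib.Frobenius.Basic Cfsg.Agent.Lib.Frobenius.Construct
  Cfsg.Agent.Lib.Frobenius.Examples

universe u

section Transport

theorem isFrobeniusComplement_map {G G' : Type*} [Group G] [Group G'] (e : G ≃* G')
    {H : Subgroup G} (hH : IsFrobeniusComplement H) :
    IsFrobeniusComplement (H.map e.toMonoidHom) := by
  have hmem : ∀ x : G, e x ∈ H.map e.toMonoidHom ↔ x ∈ H := by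
    intro x
    constructor
    · rintro ⟨y, hy, hxy⟩
      have : y = x := e.injective hxy
      exact this ▸ hy
    · intro hx
      exact ⟨x, hx, rfl⟩
  apply isFrobeniusComplement_of
  · intro h0
    apply hH.1
    rw [Subgroup.eq_bot_iff_forall]
    intro x hx
    have h1 := (hmem x).2 hx
    rw [h0, Subgroup.mem_bot] at h1
    exact e.injective (h1.trans (map_one e).symm)
  · intro h0
    apply hH.2.1
    rw [eq_top_iff]
    intro x _
    apply (hmem x).1
    rw [h0]
    trivial
  · intro g hg x hx hgx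
    obtain ⟨y, hy, rfl⟩ := hx
    obtain ⟨g', rfl⟩ := e.surjective g
    have hg' : g' ∉ H := fun h => hg ((hmem g').2 h)
    have h1 : e g'⁻¹ * e y * e g' = e (g'⁻¹ * y * g') := by simp
    have h2 : e (g'⁻¹ * y * g') ∈ H.map e.toMonoidHom := by
      rw [← h1, map_inv]
      exact hgx
    have h3 := eq_one_of_mem_of_inv_conj_mem hH hg' hy ((hmem _).1 h2)
    change e y = 1
    rw [h3, map_one]

/-- A type without algebraic structure. -/
def FinCarrier (n : ℕ) : Type := Fin n

/-- A Frobenius complement in a finite group of any universe is a Frobenius complement in a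
finite group in `Type`. -/
theorem exists_type0 {L : Type u} [Group L] [Finite L] (H : Subgroup L)
    (hH : IsFrobeniusComplement H) :
    ∃ (L' : Type) (_ : Group L') (_ : Finite L') (H' : Subgroup L'), IsFrobeniusComplement H' ∧
      Nonempty (H ≃* H') := by
  obtain ⟨n, ⟨e⟩⟩ := Finite.exists_equiv_fin L
  let e0 : L ≃ FinCarrier n := e
  letI : Group (FinCarrier n) := e0.symm.group
  haveI : Finite (FinCarrier n) := inferInstanceAs (Finite (Fin n))
  let e' : L ≃* FinCarrier n := (e0.symm.mulEquiv).symm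
  exact ⟨FinCarrier n, inferInstance, inferInstance, H.map e'.toMonoidHom,
    isFrobeniusComplement_map e' hH, ⟨H.equivMapOfInjective e'.toMonoidHom e'.injective⟩⟩

/-- A fixed-point-free additive action in any universe. -/
theorem exists_of_fpf_add' {W A : Type u} [AddGroup W] [Group A] [Finite W] [Finite A]
    [Nontrivial W] [Nontrivial A] (ρ : A → (W ≃+ W)) (h1 : ∀ v, ρ 1 v = v)
    (hmul : ∀ a b v, ρ (a * b) v = ρ a (ρ b v))
    (hfpf : ∀ a : A, a ≠ 1 → ∀ v : W, ρ a v = v → v = 0) :
    ∃ (L : Type) (_ : Group L) (_ : Finite L) (H : Subgroup L), IsFrobeniusComplement H ∧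
      Nonempty (A ≃* H) := by
  let φ : A →* MulAut (Multiplicative W) :=
    { toFun := fun a => (ρ a).toMultiplicative
      map_one' := by
        ext v
        exact h1 v.toAdd
      map_mul' := fun a b => by
        ext v
        exact hmul a b v.toAdd }
  have hφ : ∀ a : A, a ≠ 1 → ∀ v : Multiplicative W, φ a v = v → v = 1 := by
    intro a ha v hv
    exact hfpf a ha v.toAdd hv
  haveI : Finite (Multiplicative W ⋊[φ] A) :=
    Finite.of_equiv _ (SemidirectProduct.equivProd (N := Multiplicative W) (G := A) (φ := φ)).symm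
  obtain ⟨L, i1, i2, H', hH', ⟨e⟩⟩ := exists_type0 _ (inr_range_isFrobeniusComplement φ hφ)
  exact ⟨L, i1, i2, H', hH', ⟨(MonoidHom.ofInjective SemidirectProduct.inr_injective).trans e⟩⟩

end Transport

section Abstract

variable {R A : Type u} [Ring R] [Group A] (ι : A →* R) (p : ℕ)

/-- The left ideal generated by a natural number. -/
def primeIdeal (R : Type u) [Ring R] (p : ℕ) : Submodule R R := Submodule.span R {(p : R)}

/-- The quotient on which `A` acts. -/
abbrev Quo (R : Type u) [Ring R] (p : ℕ) : Type u := R ⧸ primeIdeal R p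

theorem nsmul_quo_eq_zero (v : Quo R p) : p • v = 0 := by
  induction v using Submodule.Quotient.induction_on with | H c
  have h1 : p • (Submodule.Quotient.mk c : Quo R p) = Submodule.Quotient.mk (p • c) :=
    (map_nsmul (primeIdeal R p).mkQ p c).symm
  rw [h1, Submodule.Quotient.mk_eq_zero]
  have : p • c = c • (p : R) := by
    rw [smul_eq_mul, nsmul_eq_mul, (Nat.cast_commute p c).eq]
  rw [this]
  exact Submodule.smul_mem _ _ (Submodule.mem_span_singleton_self _)

theorem quo_nontrivial (h : ¬ ∃ a : R, a * (p : R) = 1) : Nontrivial (Quo R p) := by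
  rw [Submodule.Quotient.nontrivial_iff]
  intro htop
  have h1 : (1 : R) ∈ primeIdeal R p := by
    rw [htop]
    trivial
  obtain ⟨a, ha⟩ := Submodule.mem_span_singleton.1 h1
  exact h ⟨a, ha⟩

theorem quo_finite [Module.Finite ℤ R] (hp : p ≠ 0) : Finite (Quo R p) := by
  haveI h1 : AddGroup.FG R := Module.Finite.iff_addGroup_fg.1 inferInstance
  haveI h2 : AddGroup.FG (Quo R p) :=
    AddGroup.fg_of_surjective (f := (primeIdeal R p).mkQ.toAddMonoidHom)
      (Submodule.mkQ_surjective _)
  refine AddCommGroup.finite_of_fg_isAddTorsion (Quo R p) ?_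
  intro v
  rw [isOfFinAddOrder_iff_nsmul_eq_zero]
  exact ⟨p, Nat.pos_of_ne_zero hp, nsmul_quo_eq_zero p v⟩

/-- Left multiplication by a group element on the quotient. -/
def smulEquiv (u : A) : Quo R p ≃+ Quo R p where
  toFun v := ι u • v
  invFun v := ι u⁻¹ • v
  left_inv v := by
    show ι u⁻¹ • ι u • v = v
    rw [smul_smul, ← map_mul, inv_mul_cancel, map_one, one_smul]
  right_inv v := by
    show ι u • ι u⁻¹ • v = v
    rw [smul_smul, ← map_mul, mul_inv_cancel, map_one, one_smul]
  map_add' v w := smul_add _ _ _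

theorem smulEquiv_apply (u : A) (v : Quo R p) : smulEquiv ι p u v = ι u • v := rfl

theorem fpf_of_sum [Finite A] (hsum : ∀ u : A, u ≠ 1 → ∑ k ∈ Finset.range (orderOf u), (ι u) ^ k = 0)
    (hcop : ∀ u : A, (orderOf u).Coprime p) (u : A) (hu : u ≠ 1) (v : Quo R p)
    (hv : smulEquiv ι p u v = v) : v = 0 := by
  rw [smulEquiv_apply] at hv
  have hk : ∀ k : ℕ, (ι u) ^ k • v = v := by
    intro k
    induction k with
    | zero => simp
    | succ k ih => rw [pow_succ, mul_smul, hv, ih]
  have h1 : (orderOf u) • v = 0 := by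
    have h2 : (∑ k ∈ Finset.range (orderOf u), (ι u) ^ k) • v = 0 := by
      rw [hsum u hu, zero_smul]
    rw [Finset.sum_smul] at h2
    simpa [hk] using h2
  have h2 : p • v = 0 := nsmul_quo_eq_zero p v
  have h3 : addOrderOf v ∣ 1 := by
    rw [← (hcop u)]
    exact Nat.dvd_gcd (addOrderOf_dvd_of_nsmul_eq_zero h1) (addOrderOf_dvd_of_nsmul_eq_zero h2)
  exact AddMonoid.addOrderOf_eq_one_iff.1 (Nat.dvd_one.1 h3)

/-- The abstract construction. -/
theorem exists_of_ring [Finite A] [Nontrivial A] [Module.Finite ℤ R] (hp : p ≠ 0)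
    (h : ¬ ∃ a : R, a * (p : R) = 1)
    (hsum : ∀ u : A, u ≠ 1 → ∑ k ∈ Finset.range (orderOf u), (ι u) ^ k = 0)
    (hcop : ∀ u : A, (orderOf u).Coprime p) :
    ∃ (L : Type) (_ : Group L) (_ : Finite L) (H : Subgroup L), IsFrobeniusComplement H ∧
      Nonempty (A ≃* H) := by
  haveI := quo_nontrivial (R := R) p h
  haveI := quo_finite (R := R) p hp
  refine exists_of_fpf_add' (smulEquiv ι p) ?_ ?_ (fpf_of_sum ι p hsum hcop)
  · intro v
    rw [smulEquiv_apply, map_one, one_smul]
  · intro a b v
    simp only [smulEquiv_apply]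
    rw [map_mul, mul_smul]

end Abstract

variable {D : Type u} [DivisionRing D] (H : Subgroup Dˣ)

/-- The image of `H` in `D`, as a submonoid. -/
def coeSubmonoid : Submonoid D := H.toSubmonoid.map (Units.coeHom D)

theorem mem_coeSubmonoid {u : Dˣ} (hu : u ∈ H) : (u : D) ∈ coeSubmonoid H :=
  ⟨u, hu, rfl⟩

/-- The subalgebra generated by `H`. -/
abbrev adj (K : Type*) [CommRing K] [Algebra K D] : Subalgebra K D :=
  Algebra.adjoin K (coeSubmonoid H : Set D)

theorem finite_adj [Finite H] (K : Type*) [CommRing K] [Algebra K D] :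
    Module.Finite K (adj H K) := by
  have h1 : Subalgebra.toSubmodule (adj H K) = Submodule.span K (coeSubmonoid H : Set D) := by
    rw [Algebra.adjoin_eq_span, Submonoid.closure_eq]
  have h2 : ((coeSubmonoid H : Submonoid D) : Set D).Finite := by
    have h3 : (H : Set Dˣ).Finite := Set.toFinite _
    exact h3.image (Units.coeHom D)
  have h3 : (Subalgebra.toSubmodule (adj H K)).FG := by
    rw [h1]
    exact Submodule.fg_span h2
  exact Module.Finite.iff_fg.2 h3

/-- `u ∈ H` as an element of the generated subalgebra. -/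
def inAdj (K : Type*) [CommRing K] [Algebra K D] (u : H) : adj H K :=
  ⟨((u : Dˣ) : D), Algebra.subset_adjoin (mem_coeSubmonoid H u.2)⟩

@[simp] theorem coe_inAdj (K : Type*) [CommRing K] [Algebra K D] (u : H) :
    ((inAdj H K u : adj H K) : D) = ((u : Dˣ) : D) := rfl

theorem inAdj_mul (K : Type*) [CommRing K] [Algebra K D] (a b : H) :
    inAdj H K (a * b) = inAdj H K a * inAdj H K b := by
  apply Subtype.ext
  simp

theorem inAdj_one (K : Type*) [CommRing K] [Algebra K D] :
    inAdj H K 1 = 1 := by
  apply Subtype.ext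
  simp

/-- Positive characteristic: `H` is cyclic. -/
theorem isCyclic_of_charP [Finite H] (q : ℕ) [Fact q.Prime] [CharP D q] : IsCyclic H := by
  letI : Algebra (ZMod q) D := ZMod.algebra D q
  haveI : Module.Finite (ZMod q) (adj H (ZMod q)) := finite_adj H (ZMod q)
  haveI : Finite (adj H (ZMod q)) := Module.finite_of_finite (ZMod q)
  have hfield : IsField (adj H (ZMod q)) := Finite.isDomain_to_isField _
  letI : Field (adj H (ZMod q)) := hfield.toField
  let f : H →* adj H (ZMod q) :=
    { toFun := inAdj H (ZMod q)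
      map_one' := inAdj_one H (ZMod q)
      map_mul' := inAdj_mul H (ZMod q) }
  refine isCyclic_of_injective_ringHom f ?_
  intro a b hab
  apply Subtype.ext
  apply Units.ext
  exact congrArg (fun x : adj H (ZMod q) => (x : D)) hab

section CharZero

variable [CharZero D]

theorem not_isIntegral_inv {p : ℕ} (hp : p.Prime) {x : D} (hx : x * (p : D) = 1) :
    ¬ IsIntegral ℤ x := by
  intro hint
  have hp0 : (p : D) ≠ 0 := by exact_mod_cast hp.ne_zero
  have hxeq : x = algebraMap ℚ D (1 / (p : ℚ)) := by
    rw [map_div₀, map_one, map_natCast, one_div]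
    exact eq_inv_of_mul_eq_one_left hx
  rw [hxeq, isIntegral_algebraMap_iff (algebraMap ℚ D).injective] at hint
  obtain ⟨y, hy⟩ := IsIntegrallyClosed.isIntegral_iff.1 hint
  have hp0' : (p : ℚ) ≠ 0 := by exact_mod_cast hp.ne_zero
  have h1 : ((y * p : ℤ) : ℚ) = ((1 : ℤ) : ℚ) := by
    push_cast
    have : (y : ℚ) = 1 / (p : ℚ) := hy
    rw [this]
    field_simp
  have h2 : y * (p : ℤ) = 1 := by exact_mod_cast h1
  have h3 : (p : ℤ) ∣ 1 := ⟨y, by rw [← h2]; ring⟩
  have h4 : p ∣ 1 := by exact_mod_cast h3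
  exact hp.one_lt.ne' (Nat.dvd_one.1 h4)

variable [Finite H]

/-- The homomorphism from `H` into the generated subalgebra. -/
def inAdjHom (K : Type*) [CommRing K] [Algebra K D] : H →* adj H K where
  toFun := inAdj H K
  map_one' := inAdj_one H K
  map_mul' := inAdj_mul H K

theorem geom_sum_eq_zero (u : H) (hu : u ≠ 1) :
    ∑ k ∈ Finset.range (orderOf u), (inAdjHom H ℤ u) ^ k = 0 := by
  apply Subtype.ext
  have h1 : ((u : Dˣ) : D) ≠ 1 := by
    intro h
    apply hu
    apply Subtype.ext
    apply Units.ext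
    exact h
  have h2 : (((u : Dˣ) : D)) ^ (orderOf u) = 1 := by
    have h3 := congrArg (fun x : Dˣ => (x : D)) (pow_orderOf_eq_one (u : Dˣ))
    rw [Subgroup.orderOf_coe] at h3
    simpa using h3
  have h3 : (∑ k ∈ Finset.range (orderOf u), ((u : Dˣ) : D) ^ k) * (((u : Dˣ) : D) - 1) = 0 := by
    rw [geom_sum_mul, h2, sub_self]
  have h4 := (mul_eq_zero.1 h3).resolve_right (sub_ne_zero.2 h1)
  have h5 : ((∑ k ∈ Finset.range (orderOf u), (inAdjHom H ℤ u) ^ k : adj H ℤ) : D) =
      ∑ k ∈ Finset.range (orderOf u), ((u : Dˣ) : D) ^ k := by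
    push_cast
    rfl
  rw [h5, h4]
  rfl

theorem isComplement_charZero (hH : H ≠ ⊥) :
    ∃ (L : Type) (_ : Group L) (_ : Finite L) (C : Subgroup L), IsFrobeniusComplement C ∧
      Nonempty (H ≃* C) := by
  haveI : Nontrivial H := (Subgroup.nontrivial_iff_ne_bot H).2 hH
  haveI := finite_adj H ℤ
  obtain ⟨p, hpgt, hp⟩ := Nat.exists_infinite_primes (Nat.card H + 1)
  refine exists_of_ring (inAdjHom H ℤ) p hp.ne_zero ?_ (geom_sum_eq_zero H) ?_
  · rintro ⟨a, ha⟩
    have hint : IsIntegral ℤ a := IsIntegral.of_finite ℤ a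
    have hint2 : IsIntegral ℤ (a : D) := by
      have := hint.map (adj H ℤ).val
      simpa using this
    refine not_isIntegral_inv hp ?_ hint2
    have := congrArg (fun x : adj H ℤ => (x : D)) ha
    simpa using this
  · intro u
    rw [Nat.coprime_comm, hp.coprime_iff_not_dvd]
    intro hdvd
    have h1 : orderOf u ∣ Nat.card H := orderOf_dvd_natCard u
    have h2 := Nat.le_of_dvd Nat.card_pos (hdvd.trans h1)
    omega

end CharZero

/-- A nontrivial finite subgroup of the multiplicative group of a division ring is a Frobenius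
complement. -/
theorem isComplement (hH : H ≠ ⊥) [Finite H] :
    ∃ (L : Type) (_ : Group L) (_ : Finite L) (C : Subgroup L), IsFrobeniusComplement C ∧
      Nonempty (H ≃* C) := by
  obtain ⟨q, hq⟩ := CharP.exists D
  rcases CharP.char_is_prime_or_zero D q with h | h
  · haveI : Fact q.Prime := ⟨h⟩
    haveI : IsCyclic H := isCyclic_of_charP H q
    haveI : Nontrivial H := (Subgroup.nontrivial_iff_ne_bot H).2 hH
    obtain ⟨L, i1, i2, C, hC, ⟨e⟩⟩ := cyclic_isComplement (C := H)
    exact ⟨L, i1, i2, C, hC, ⟨e⟩⟩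
  · subst h
    haveI : CharZero D := CharP.charP_to_charZero D
    exact isComplement_charZero H hH

end Cfsg.Agent.Lib.Frobenius.DivisionRing
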