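import Cfsg.Agent.Lib.Frobenius.Construct
import Mathlib.RingTheory.IntegralDomain
import Mathlib.LinearAlgebra.Matrix.Notation
import Mathlib.GroupTheory.SpecificGroups.Quaternion

/-!
# Examples of Frobenius complements: cyclic and dicyclic groups
-/

set_option autoImplicit false
set_option linter.style.haveILetI false
set_option linter.unusedSectionVars false

namespace Cfsg.Agent.Lib.Frobenius.Examples

open Cfsg Cfsg.Agent.Lib.Frobenius.Basic Cfsg.Agent.Lib.Frobenius.Construct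

/-- A prime `≡ 1 mod n`, and an element of order `n` in the units of the prime field. -/
theorem exists_prime_elt {n : ℕ} (hn : n ≠ 0) :
    ∃ (p : ℕ) (_ : p.Prime) (_ : n ∣ p - 1) (ζ : (ZMod p)ˣ), orderOf ζ = n := by
  obtain ⟨p, hp, _, hp1⟩ := Nat.exists_prime_gt_modEq_one 1 hn
  haveI : Fact p.Prime := ⟨hp⟩
  have hdvd : n ∣ p - 1 := (Nat.modEq_iff_dvd' hp.one_lt.le).1 hp1.symm
  refine ⟨p, hp, hdvd, ?_⟩
  have hcard : Nat.card (ZMod p)ˣ = p - 1 := by
    rw [Nat.card_eq_fintype_card, ZMod.card_units]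
  obtain ⟨g, hg⟩ := IsCyclic.exists_generator (α := (ZMod p)ˣ)
  have hord : orderOf g = p - 1 := by
    rw [orderOf_eq_card_of_forall_mem_zpowers hg, hcard]
  obtain ⟨k, hk⟩ := hdvd
  have hkpos : 0 < k := by
    apply Nat.pos_of_ne_zero
    rintro rfl
    have := hp.two_le
    omega
  refine ⟨g ^ k, ?_⟩
  rw [orderOf_pow_of_dvd hkpos.ne' (by rw [hord, hk]; exact dvd_mul_left k n), hord, hk]
  exact Nat.mul_div_cancel _ hkpos

/-- Every nontrivial finite cyclic group is a Frobenius complement. -/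
theorem cyclic_isComplement {C : Type*} [Group C] [Finite C] [IsCyclic C] [Nontrivial C] :
    ∃ (L : Type) (_ : Group L) (_ : Finite L) (H : Subgroup L), IsFrobeniusComplement H ∧
      Nonempty (C ≃* H) := by
  have hn : Nat.card C ≠ 0 := Nat.card_pos.ne'
  obtain ⟨p, hp, _, ζ, hζ⟩ := exists_prime_elt hn
  haveI : Fact p.Prime := ⟨hp⟩
  let A : Subgroup (ZMod p)ˣ := Subgroup.zpowers ζ
  have hcardA : Nat.card A = Nat.card C := by
    rw [Nat.card_zpowers, hζ]
  haveI : Nontrivial A := by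
    rw [← Finite.one_lt_card_iff_nontrivial, hcardA]
    exact Finite.one_lt_card
  have e : C ≃* A := mulEquivOfCyclicCardEq hcardA.symm
  let ρ : A → (ZMod p ≃+ ZMod p) := fun a =>
    { toFun := fun v => ((a : (ZMod p)ˣ) : ZMod p) * v
      invFun := fun v => (((a : (ZMod p)ˣ)⁻¹ : (ZMod p)ˣ) : ZMod p) * v
      left_inv := fun v => by
        show (((a : (ZMod p)ˣ)⁻¹ : (ZMod p)ˣ) : ZMod p) * (((a : (ZMod p)ˣ) : ZMod p) * v) = v
        rw [← mul_assoc, Units.inv_mul, one_mul]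
      right_inv := fun v => by
        show ((a : (ZMod p)ˣ) : ZMod p) * ((((a : (ZMod p)ˣ)⁻¹ : (ZMod p)ˣ) : ZMod p) * v) = v
        rw [← mul_assoc, Units.mul_inv, one_mul]
      map_add' := fun v w => mul_add _ _ _ }
  obtain ⟨L, i1, i2, H, hH, ⟨e'⟩⟩ := exists_of_fpf_add ρ (fun v => by
      show (((1 : A) : (ZMod p)ˣ) : ZMod p) * v = v
      rw [OneMemClass.coe_one, Units.val_one, one_mul])
    (fun a b v => by
      show (((a * b : A) : (ZMod p)ˣ) : ZMod p) * v = ((a : (ZMod p)ˣ) : ZMod p) * (((b : (ZMod p)ˣ) : ZMod p) * v)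
      rw [MulMemClass.coe_mul, Units.val_mul, mul_assoc]) (by
      intro a ha v hv
      have h1 : ((a : (ZMod p)ˣ) : ZMod p) * v = v := hv
      have h2 : (((a : (ZMod p)ˣ) : ZMod p) - 1) * v = 0 := by
        rw [sub_mul, h1, one_mul, sub_self]
      rcases mul_eq_zero.1 h2 with h3 | h3
      · exfalso
        apply ha
        apply Subtype.ext
        apply Units.ext
        simpa using sub_eq_zero.1 h3
      · exact h3)
  exact ⟨L, i1, i2, H, hH, ⟨e.trans e'⟩⟩

section Dicyclic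

variable {n : ℕ}

/-- The exponential `ZMod (2n) → F`. -/
def zexp {F : Type} [Field F] (n : ℕ) (ζ : F) (i : ZMod (2 * n)) : F := ζ ^ i.val

variable {F : Type} [Field F] {ζ : F}

theorem zexp_add [NeZero (2 * n)] (hζ : ζ ^ (2 * n) = 1) (i j : ZMod (2 * n)) :
    zexp n ζ (i + j) = zexp n ζ i * zexp n ζ j := by
  simp only [zexp]
  rw [ZMod.val_add, ← pow_add]
  exact (pow_eq_pow_mod _ hζ).symm

theorem zexp_zero [NeZero (2 * n)] : zexp n ζ 0 = 1 := by
  simp [zexp, ZMod.val_zero]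

theorem zexp_mul_neg [NeZero (2 * n)] (hζ : ζ ^ (2 * n) = 1) (i : ZMod (2 * n)) :
    zexp n ζ i * zexp n ζ (-i) = 1 := by
  rw [← zexp_add hζ, add_neg_cancel, zexp_zero]

theorem zexp_natCast [NeZero (2 * n)] (hζ : ζ ^ (2 * n) = 1) (k : ℕ) :
    zexp n ζ (k : ZMod (2 * n)) = ζ ^ k := by
  simp only [zexp]
  rw [ZMod.val_natCast]
  exact (pow_eq_pow_mod _ hζ).symm

theorem zexp_n [NeZero (2 * n)] (hζ : ζ ^ (2 * n) = 1) (hζn : ζ ^ n ≠ 1) :
    zexp n ζ ((n : ℕ) : ZMod (2 * n)) = -1 := by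
  rw [zexp_natCast hζ]
  have h1 : (ζ ^ n) * (ζ ^ n) = 1 := by rw [← pow_add, ← two_mul, hζ]
  rcases mul_self_eq_one_iff.1 h1 with h2 | h2
  · exact absurd h2 hζn
  · exact h2

/-- The homomorphism from the dicyclic group to `SL₂`. -/
def dicyclicFun (n : ℕ) [NeZero (2 * n)] (ζ : F) (hζ : ζ ^ (2 * n) = 1) :
    QuaternionGroup n → Matrix.SpecialLinearGroup (Fin 2) F
  | QuaternionGroup.a i => ⟨!![zexp n ζ i, 0; 0, zexp n ζ (-i)], by
      rw [Matrix.det_fin_two_of, zexp_mul_neg hζ]; simp⟩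
  | QuaternionGroup.xa i => ⟨!![0, - zexp n ζ (-i); zexp n ζ i, 0], by
      rw [Matrix.det_fin_two_of]
      have := zexp_mul_neg hζ i
      linear_combination this⟩

theorem dicyclicFun_mul (n : ℕ) [NeZero (2 * n)] (ζ : F) (hζ : ζ ^ (2 * n) = 1) (hζn : ζ ^ n ≠ 1)
    (x y : QuaternionGroup n) :
    dicyclicFun n ζ hζ (x * y) = dicyclicFun n ζ hζ x * dicyclicFun n ζ hζ y := by
  have hadd := zexp_add (n := n) hζ
  have hn1 := zexp_n hζ hζn
  have hneg : ∀ i j : ZMod (2 * n), -(i + j) = -i + -j := fun i j => neg_add i j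
  have hsub : ∀ i j : ZMod (2 * n), -(i - j) = -i + j := fun i j => by ring
  have hsub' : ∀ i j : ZMod (2 * n), i - j = i + -j := fun i j => sub_eq_add_neg i j
  have hneg2 : ∀ (i : ZMod (2 * n)), - -i = i := fun i => neg_neg i
  have hnneg : zexp n ζ (-((n : ℕ) : ZMod (2 * n))) = -1 := by
    have h := zexp_mul_neg (n := n) hζ ((n : ℕ) : ZMod (2 * n))
    rw [hn1] at h
    linear_combination -h
  rcases x with i | i <;> rcases y with j | j
  · rw [QuaternionGroup.a_mul_a]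
    apply Subtype.ext
    rw [Matrix.SpecialLinearGroup.coe_mul]
    show !![zexp n ζ (i + j), 0; 0, zexp n ζ (-(i + j))] = !![zexp n ζ i, 0; 0, zexp n ζ (-i)] * !![zexp n ζ j, 0; 0, zexp n ζ (-j)]
    rw [Matrix.mul_fin_two, hneg, hadd, hadd]
    simp
  · rw [QuaternionGroup.a_mul_xa]
    apply Subtype.ext
    rw [Matrix.SpecialLinearGroup.coe_mul]
    show !![0, - zexp n ζ (-(j - i)); zexp n ζ (j - i), 0] = !![zexp n ζ i, 0; 0, zexp n ζ (-i)] * !![0, - zexp n ζ (-j); zexp n ζ j, 0]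
    rw [Matrix.mul_fin_two, hsub, hsub', hadd, hadd]
    simp [mul_comm]
  · rw [QuaternionGroup.xa_mul_a]
    apply Subtype.ext
    rw [Matrix.SpecialLinearGroup.coe_mul]
    show !![0, - zexp n ζ (-(i + j)); zexp n ζ (i + j), 0] = !![0, - zexp n ζ (-i); zexp n ζ i, 0] * !![zexp n ζ j, 0; 0, zexp n ζ (-j)]
    rw [Matrix.mul_fin_two, hneg, hadd, hadd]
    simp
  · rw [QuaternionGroup.xa_mul_xa]
    apply Subtype.ext
    rw [Matrix.SpecialLinearGroup.coe_mul]
    show !![zexp n ζ ((n : ℕ) + j - i), 0; 0, zexp n ζ (-((n : ℕ) + j - i))] = !![0, - zexp n ζ (-i); zexp n ζ i, 0] * !![0, - zexp n ζ (-j); zexp n ζ j, 0]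
    rw [Matrix.mul_fin_two, hsub, hsub', hneg, hadd, hadd, hadd, hadd, hn1, hnneg]
    simp [mul_comm]

/-- The homomorphism from the dicyclic group to `SL₂`. -/
noncomputable def dicyclicHom (n : ℕ) [NeZero (2 * n)] (ζ : F) (hζ : ζ ^ (2 * n) = 1)
    (hζn : ζ ^ n ≠ 1) : QuaternionGroup n →* Matrix.SpecialLinearGroup (Fin 2) F :=
  MonoidHom.mk' (dicyclicFun n ζ hζ) (dicyclicFun_mul n ζ hζ hζn)

theorem zexp_injective [NeZero (2 * n)] (hζ : orderOf ζ = 2 * n) {i j : ZMod (2 * n)}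
    (h : zexp n ζ i = zexp n ζ j) : i = j := by
  have hvi := ZMod.val_lt i
  have hvj := ZMod.val_lt j
  have h1 := pow_injOn_Iio_orderOf (x := ζ) (by simpa [hζ] using hvi)
    (by simpa [hζ] using hvj) h
  exact ZMod.val_injective _ h1

theorem dicyclicHom_injective (n : ℕ) [NeZero (2 * n)] (ζ : F) (hζ : ζ ^ (2 * n) = 1)
    (hζn : ζ ^ n ≠ 1) (hord : orderOf ζ = 2 * n) :
    Function.Injective (dicyclicHom n ζ hζ hζn) := by
  rw [injective_iff_map_eq_one]
  rintro (i | i) hx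
  · have h1 := congrArg (fun M : Matrix.SpecialLinearGroup (Fin 2) F => M.1 0 0) hx
    have h2 : zexp n ζ i = 1 := by simpa [dicyclicHom, dicyclicFun] using h1
    have h3 : i = 0 := zexp_injective hord (h2.trans (zexp_zero (n := n)).symm)
    rw [h3]
    rfl
  · exfalso
    have h1 := congrArg (fun M : Matrix.SpecialLinearGroup (Fin 2) F => M.1 0 0) hx
    simp [dicyclicHom, dicyclicFun] at h1

/-- The dicyclic groups are Frobenius complements. -/
theorem dicyclic_isComplement (n : ℕ) (hn : 2 ≤ n) :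
    ∃ (L : Type) (_ : Group L) (_ : Finite L) (H : Subgroup L), IsFrobeniusComplement H ∧
      Nonempty (H ≃* QuaternionGroup n) := by
  haveI h2n : NeZero (2 * n) := ⟨by omega⟩
  haveI hn0 : NeZero n := ⟨by omega⟩
  obtain ⟨p, hp, hdvd, ζ, hζ⟩ := exists_prime_elt (n := 2 * n) (by omega)
  haveI : Fact p.Prime := ⟨hp⟩
  have hcard : Nat.card (QuaternionGroup n) = 4 * n := by
    rw [Nat.card_eq_fintype_card, QuaternionGroup.card]
  haveI : Nontrivial (QuaternionGroup n) := by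
    rw [← Finite.one_lt_card_iff_nontrivial, hcard]
    omega
  have hp1 : 1 < p := hp.one_lt
  have hcop : (Nat.card (QuaternionGroup n)).Coprime p := by
    rw [hcard, Nat.coprime_comm, hp.coprime_iff_not_dvd]
    intro hdiv
    have h2 : p ∣ 2 * (2 * n) := by
      rwa [show 4 * n = 2 * (2 * n) by ring] at hdiv
    rcases (hp.dvd_mul).1 h2 with h3 | h3
    · have h4 : p = 2 := (Nat.prime_dvd_prime_iff_eq hp Nat.prime_two).1 h3
      subst h4
      have := Nat.le_of_dvd (by norm_num) hdvd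
      omega
    · have h4 := Nat.dvd_trans h3 hdvd
      have h5 := Nat.le_of_dvd (by omega) h4
      omega
  have hord : orderOf (ζ : ZMod p) = 2 * n := by
    rw [orderOf_units, hζ]
  have hζ1 : (ζ : ZMod p) ^ (2 * n) = 1 := by
    rw [← hord]
    exact pow_orderOf_eq_one _
  have hζn : (ζ : ZMod p) ^ n ≠ 1 := by
    intro h
    have := orderOf_le_of_pow_eq_one (by omega) h
    omega
  obtain ⟨L, i1, i2, H, hH, ⟨e⟩⟩ := exists_of_sl2 p hp (dicyclicHom n (ζ : ZMod p) hζ1 hζn)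
    (dicyclicHom_injective n _ hζ1 hζn hord) hcop
  exact ⟨L, i1, i2, H, hH, ⟨e.symm⟩⟩

end Dicyclic

end Cfsg.Agent.Lib.Frobenius.Examples
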